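import Mathlib
import Cfsg.Agent.Lib.ChDeg.Avg
import Cfsg.Agent.Lib.Char.ClassCount
import Cfsg.Agent.Lib.Char.FrobChar
import Cfsg.Agent.Lib.Core.MinNormal

/-! Irreducible characters vanishing outside two conjugacy classes; Camina pairs. -/

set_option autoImplicit false
set_option linter.unusedSectionVars false

namespace CfsgLib.ChDeg

open Cfsg CfsgLib.Char Module
open scoped ComplexConjugate

variable {G : Type*} [Group G] [Finite G]

theorem gagola_exists {χ : G → ℂ} (hχ : IsIrrCharacter G χ)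
    (h2 : Nat.card {C : ConjClasses G // ∃ g ∈ C.carrier, χ g ≠ 0} = 2) :
    ∃ x : G, x ≠ 1 ∧ ∀ g, χ g ≠ 0 ↔ g = 1 ∨ IsConj x g := by
  have hcf := isClassFunction_of_isIrr hχ
  let a : {C : ConjClasses G // ∃ g ∈ C.carrier, χ g ≠ 0} :=
    ⟨ConjClasses.mk 1, 1, ConjClasses.mem_carrier_mk, irr_one_ne_zero hχ⟩
  obtain ⟨⟨C, x, hx, hx0⟩, hb, hu⟩ := (Nat.card_eq_two_iff' a).mp h2
  rw [ConjClasses.mem_carrier_iff_mk_eq] at hx
  subst hx
  refine ⟨x, fun e => hb (by subst e; rfl), fun g => ⟨fun hg => ?_, ?_⟩⟩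
  · by_cases h1 : g = 1
    · exact Or.inl h1
    · right
      have := hu ⟨ConjClasses.mk g, g, ConjClasses.mem_carrier_mk, hg⟩ (fun e => h1 (by
        have := congrArg Subtype.val e
        exact isConj_one_left.mp (ConjClasses.mk_eq_mk_iff_isConj.mp this)))
      exact (ConjClasses.mk_eq_mk_iff_isConj.mp (congrArg Subtype.val this)).symm
  · rintro (rfl | hg)
    · exact irr_one_ne_zero hχ
    · rwa [← classFun_eq_of_isConj hcf hg]

theorem sum_eq_of_two_classes [Fintype G] {f : G → ℂ} (hf : IsClassFunction G f) {x : G}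
    (hx : x ≠ 1) (h : ∀ g, f g ≠ 0 → g = 1 ∨ IsConj x g) :
    ∑ g, f g = f 1 + (Subgroup.centralizer ({x} : Set G)).index * f x := by
  classical
  rw [← sum_classInd_mul x hf, ← Finset.add_sum_erase _ _ (Finset.mem_univ (1 : G)),
    ← Finset.add_sum_erase _ (fun g => classInd x g * f g) (Finset.mem_univ (1 : G)),
    classInd_of_not_isConj (fun e => hx (isConj_one_right.mp e)), zero_mul, zero_add]
  congr 1
  refine Finset.sum_congr rfl fun g hg => ?_
  by_cases h0 : f g = 0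
  · rw [h0, mul_zero]
  · rw [classInd_of_isConj ((h g h0).resolve_left (Finset.ne_of_mem_erase hg)).symm, one_mul]

/-- The data of a Gagola character. -/
structure IsGagola (χ : G → ℂ) (N : Subgroup G) : Prop where
  irr : IsIrrCharacter G χ
  ne_one : χ ≠ fun _ => 1
  normal : N.Normal
  ne_bot : N ≠ ⊥
  mem_iff : ∀ g, g ∈ N ↔ χ g ≠ 0
  isConj : ∀ x ∈ N, ∀ y ∈ N, x ≠ 1 → y ≠ 1 → IsConj x y
  le_cker : ∀ ψ, IsIrrCharacter G ψ → ψ ≠ χ → N ≤ cker ψ

theorem exists_isGagola (hG : 2 < Nat.card G) {χ : G → ℂ} (hχ : IsIrrCharacter G χ)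
    (h2 : Nat.card {C : ConjClasses G // ∃ g ∈ C.carrier, χ g ≠ 0} = 2) :
    ∃ N : Subgroup G, IsGagola χ N := by
  classical
  have : Fintype G := Fintype.ofFinite G
  obtain ⟨x, hx1, hx⟩ := gagola_exists hχ h2
  have hcf := isClassFunction_of_isIrr hχ
  have hc := isCharacter_of_isIrr hχ
  have hne : χ ≠ fun _ => 1 := by
    rintro rfl
    have h1 := sum_eq_of_two_classes hcf hx1 fun g hg => (hx g).mp hg
    simp only [Finset.sum_const, Finset.card_univ, nsmul_eq_mul, mul_one,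
      ← Nat.card_eq_fintype_card] at h1
    have h3 : Nat.card G = 1 + (Subgroup.centralizer ({x} : Set G)).index := by exact_mod_cast h1
    have h4 := Subgroup.index_dvd_card (Subgroup.centralizer ({x} : Set G))
    rw [h3, Nat.dvd_add_self_right, Nat.dvd_one] at h4
    omega
  have h0 := sum_eq_of_two_classes hcf hx1 fun g hg => (hx g).mp hg
  rw [sum_irr_eq_zero hχ hne] at h0
  have hker : ∀ ψ, IsIrrCharacter G ψ → ψ ≠ χ → x ∈ cker ψ := fun ψ hψ hψχ => by
    have hψc := isCharacter_of_isIrr hψ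
    have h1 := sum_eq_of_two_classes (f := fun g => χ g * conj (ψ g))
      (isClassFunction_mul hcf (isClassFunction_conj (isClassFunction_of_isIrr hψ))) hx1
      fun g hg => (hx g).mp (left_ne_zero_of_mul hg)
    rw [← card_mul_classInner, classInner_irr_of_ne hχ hψ hψχ.symm, mul_zero] at h1
    rw [mem_cker hψc]
    have h3 : χ 1 * (conj (ψ 1) - conj (ψ x)) = 0 := by linear_combination conj (ψ x) * h0 - h1
    have h4 := sub_eq_zero.mp ((mul_eq_zero.mp h3).resolve_left (irr_one_ne_zero hχ))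
    exact ((starRingEnd ℂ).injective h4).symm
  let N : Subgroup G := Subgroup.normalClosure {x}
  have hNk : ∀ ψ, IsIrrCharacter G ψ → ψ ≠ χ → N ≤ cker ψ := fun ψ hψ hψχ =>
    Subgroup.normalClosure_le_normal (Set.singleton_subset_iff.mpr (hker ψ hψ hψχ))
  have hxN : x ∈ N := Subgroup.subset_normalClosure rfl
  have hmem : ∀ g, g ∈ N ↔ χ g ≠ 0 := fun g => by
    constructor
    · intro hg h0
      by_cases hg1 : g = 1
      · exact irr_one_ne_zero hχ (hg1 ▸ h0)
      · refine hg1 (isConj_one_left.mp (isConj_of_forall_zero_or_eq fun ψ hψ => ?_))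
        by_cases e : ψ = χ
        · exact Or.inl (e ▸ h0)
        · exact Or.inr ((mem_cker (isCharacter_of_isIrr hψ)).mp (hNk ψ hψ e hg)).symm
    · intro hg
      rcases (hx g).mp hg with rfl | hg
      · exact N.one_mem
      · obtain ⟨c, rfl⟩ := isConj_iff.mp hg
        exact Subgroup.Normal.conj_mem inferInstance x hxN c
  refine ⟨N, hχ, hne, inferInstance, fun e => hx1 (by rwa [e] at hxN), hmem,
    fun a ha b hb ha1 hb1 => ?_, hNk⟩
  exact (((hx a).mp ((hmem a).mp ha)).resolve_left ha1).symm.trans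
    (((hx b).mp ((hmem b).mp hb)).resolve_left hb1)

namespace IsGagola

variable {χ : G → ℂ} {N : Subgroup G}

theorem eq_of_mem_iff (h : IsGagola χ N) {M : Subgroup G} (hM : ∀ g, g ∈ M ↔ χ g ≠ 0) : N = M := by
  ext g
  rw [h.mem_iff, hM]

theorem not_le_cker (h : IsGagola χ N) : ¬ N ≤ cker χ := fun e => h.ne_bot <| by
  rw [eq_bot_iff]
  intro g hg
  refine eq_one_of_forall_mem_cker fun ψ hψ => ?_
  by_cases e' : ψ = χ
  · exact e' ▸ e hg
  · exact h.le_cker ψ hψ e' hg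

theorem eq_of_not_le (h : IsGagola χ N) {ψ : G → ℂ} (hψ : IsIrrCharacter G ψ)
    (hN : ¬ N ≤ cker ψ) : ψ = χ := by
  by_contra e
  exact hN (h.le_cker ψ hψ e)

theorem le_of_le (h : IsGagola χ N) {K : Subgroup G} [hK : K.Normal] (hK1 : K ≠ ⊥)
    (hKN : K ≤ N) : N ≤ K := by
  obtain ⟨⟨x, hx⟩, hx1⟩ := Subgroup.ne_bot_iff_exists_ne_one.mp hK1
  have hx1' : x ≠ 1 := fun e => hx1 (Subtype.ext e)
  intro y hy
  by_cases hy1 : y = 1
  · exact hy1 ▸ K.one_mem
  · obtain ⟨c, rfl⟩ := isConj_iff.mp (h.isConj x (hKN hx) y hy hx1' hy1)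
    exact hK.conj_mem x hx c

theorem cker_eq_bot (h : IsGagola χ N) : cker χ = ⊥ := by
  by_contra e
  refine h.not_le_cker (h.le_of_le e fun g hg => (h.mem_iff g).mpr ?_)
  rw [(mem_cker (isCharacter_of_isIrr h.irr)).mp hg]
  exact irr_one_ne_zero h.irr

theorem le_of_ne_bot (h : IsGagola χ N) {K : Subgroup G} [K.Normal] (hK1 : K ≠ ⊥) : N ≤ K := by
  intro g hg
  by_contra hgK
  obtain ⟨ψ, hψ, hKψ, hgψ⟩ := exists_irr_le_cker_not_mem K hgK
  by_cases e : ψ = χ
  · rw [e, h.cker_eq_bot, le_bot_iff] at hKψ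
    exact hK1 hKψ
  · exact hgψ (h.le_cker ψ hψ e hg)

theorem exists_isPGroup (h : IsGagola χ N) : ∃ p : ℕ, p.Prime ∧ IsPGroup p N := by
  obtain ⟨p, hp, hd⟩ := Nat.exists_prime_and_dvd (n := Nat.card N)
    (fun e => h.ne_bot (Subgroup.card_eq_one.mp e))
  obtain ⟨x, hx, hxp⟩ := CfsgLib.Core.exists_mem_orderOf_eq_of_dvd_card hp hd
  have hx1 : x ≠ 1 := by
    rintro rfl
    rw [orderOf_one] at hxp
    exact hp.one_lt.ne hxp
  refine ⟨p, hp, CfsgLib.Core.isPGroup_of_forall_pow_eq_one fun y hy => ?_⟩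
  by_cases hy1 : y = 1
  · rw [hy1, one_pow]
  · obtain ⟨c, rfl⟩ := isConj_iff.mp (h.isConj x hx y hy hx1 hy1)
    rw [conj_pow, ← hxp, pow_orderOf_eq_one, mul_one, mul_inv_cancel]

theorem exists_elementary (h : IsGagola χ N) : ∃ p : ℕ, p.Prime ∧ IsElementaryAbelian p N := by
  obtain ⟨p, hp, hN⟩ := h.exists_isPGroup
  have := h.normal
  have : Fact p.Prime := ⟨hp⟩
  have := hN.isNilpotent
  refine CfsgLib.Core.isElementaryAbelian_of_minimal_normal h.ne_bot fun M hM hMN => ?_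
  by_cases e : M = ⊥
  · exact Or.inl e
  · exact Or.inr (le_antisymm hMN (h.le_of_ne_bot e))

theorem vanish (h : IsGagola χ N) {g : G} (hg : g ∉ N) (ψ : G → ℂ) (hψ : IsIrrCharacter G ψ)
    (hN : ¬ N ≤ cker ψ) : ψ g = 0 := by
  rw [h.eq_of_not_le hψ hN]
  by_contra e
  exact hg ((h.mem_iff g).mpr e)

theorem isConj_mul (h : IsGagola χ N) {g : G} (hg : g ∉ N) {n : G} (hn : n ∈ N) :
    IsConj g (n * g) := isConj_mul_of_forall_eq_zero N (h.vanish hg) hn

end IsGagola

/-- In a Camina pair with `N` a `p`-group, centralizers of nonidentity elements of `N` are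
`p`-groups. -/
theorem camina_isPGroup_centralizer {N : Subgroup G} {p : ℕ} (hp : p.Prime) (hN : IsPGroup p N)
    (hC : ∀ g, g ∉ N → ∀ n ∈ N, IsConj g (n * g)) {x : G} (hx : x ∈ N) (hx1 : x ≠ 1) :
    IsPGroup p (Subgroup.centralizer ({x} : Set G)) := by
  have : Fact p.Prime := ⟨hp⟩
  rw [IsPGroup.iff_card]
  refine ⟨_, Nat.eq_prime_pow_of_unique_prime_dvd Nat.card_pos.ne' fun {q} hq hd => ?_⟩
  by_contra hqp
  obtain ⟨y, hy, hyq⟩ := CfsgLib.Core.exists_mem_orderOf_eq_of_dvd_card hq hd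
  have hcop : ∀ z ∈ N, z ^ q = 1 → z = 1 := fun z hz hzq => by
    obtain ⟨k, hk⟩ := CfsgLib.Core.isPGroup_subgroup_iff.mp hN z hz
    have := (pow_gcd_eq_one (m := q) (n := p ^ k) (a := z)).mpr ⟨hzq, hk⟩
    rwa [Nat.Coprime.gcd_eq_one (((Nat.coprime_primes hq hp).mpr hqp).pow_right k), pow_one] at this
  have hyq' : y ^ q = 1 := by rw [← hyq, pow_orderOf_eq_one]
  have hyN : y ∉ N := fun e => by
    rw [hcop y e hyq', orderOf_one] at hyq
    exact hq.one_lt.ne hyq
  obtain ⟨c, hc⟩ := isConj_iff.mp (hC y hyN x hx)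
  have hcomm : Commute x y := hy x rfl
  have h1 : (x * y) ^ q = 1 := by rw [← hc, conj_pow, hyq', mul_one, mul_inv_cancel]
  rw [hcomm.mul_pow, hyq', mul_one] at h1
  exact hx1 (hcop x hx h1)

/-- If `|C_G(z)| = |C_{G/N}(zN)|` for a normal `p`-subgroup `N`, `z ∈ P` and all commutators of `z`
with elements of the Sylow subgroup `P` lie in `M`, then `|N| ≤ |M|`. -/
theorem camina_card_le {N : Subgroup G} [N.Normal] {p : ℕ} [hp : Fact p.Prime] (hN : IsPGroup p N)
    (P : Sylow p G) (z : (P : Subgroup G)) (M : Subgroup (P : Subgroup G))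
    (hz : Nat.card (Subgroup.centralizer ({(z : G)} : Set G)) =
      Nat.card (Subgroup.centralizer ({((z : G) : G ⧸ N)} : Set (G ⧸ N))))
    (hM : ∀ g : (P : Subgroup G), g * z * g⁻¹ * z⁻¹ ∈ M) : Nat.card N ≤ Nat.card M := by
  set C := Subgroup.centralizer ({z} : Set (P : Subgroup G)) with hC
  have h1 : C.index ≤ Nat.card M := by
    rw [← card_isConj_eq_index_centralizer]
    refine Nat.card_le_card_of_injective (fun x => (⟨x.1 * z⁻¹, ?_⟩ : M)) fun a b e => ?_
    · obtain ⟨c, hc⟩ := isConj_iff.mp x.2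
      rw [← hc]
      exact hM c
    · exact Subtype.ext (mul_right_cancel (congrArg Subtype.val e))
  have h2 : Nat.card C ∣ Nat.card (Subgroup.centralizer ({(z : G)} : Set G)) := by
    rw [← CfsgLib.Core.card_map_subtype]
    refine Subgroup.card_dvd_of_le ?_
    rintro _ ⟨y, hy, rfl⟩ w rfl
    exact congrArg Subtype.val (hy z rfl)
  have h3 : Nat.card C * Nat.card N ∣ Nat.card G := by
    rw [← N.card_mul_index, mul_comm]
    exact Nat.mul_dvd_mul_left _ (h2.trans (hz ▸ Subgroup.card_subgroup_dvd_card _))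
  obtain ⟨a, ha⟩ := (P.isPGroup'.to_subgroup C).exists_card_eq
  obtain ⟨b, hb⟩ := hN.exists_card_eq
  have h4 : Nat.card C * Nat.card N ∣ Nat.card (P : Subgroup G) := by
    rw [ha, hb, ← pow_add] at h3 ⊢
    exact P.pow_dvd_card_of_pow_dvd_card h3
  have h5 := Nat.le_of_dvd Nat.card_pos h4
  rw [← C.card_mul_index] at h5
  exact (Nat.le_of_mul_le_mul_left h5 Nat.card_pos).trans h1

end CfsgLib.ChDeg
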